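import Mathlib
import Cfsg.Agent.H794.SmallFix
import Cfsg.Agent.Lib.FrattiniPGroup
import Cfsg.Agent.Schreier.Tools2
import Cfsg.Prelude.Def_Transfer
import Cfsg.Agent.Transfer.AlperinFusion
import Cfsg.Agent.Transfer.TateComplement
import Cfsg.Agent.Transfer.PNilpotentBasic
import Cfsg.Agent.S0080
set_option linter.all false

-- part: H269/FixedOrder
section
/-!
# Coprime automorphisms of a `p`-group and the subgroups of one fixed order

`eq_one_of_fixed_order`: an automorphism `b` of order prime to `p` of a finite `p`-group `Q` is trivial as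
soon as (for one fixed `1 < p ^ k < #Q`) it acts trivially on `M / E` whenever `M` is non-cyclic of order
`p ^ (k + 1)` and `E ≤ M` has order `p ^ k`, and fixes pointwise the cyclic subgroups of order `p ^ k`
(and those of order 4 when `p ^ k = 2`).
-/

set_option autoImplicit false

namespace Cfsg.Agent.H269

open Subgroup

/-- Subgroups of intermediate order between two subgroups, the larger one a `p`-group. -/
theorem exists_between {G : Type*} [Group G] [Finite G] {p : ℕ} [hp : Fact p.Prime] (E L : Subgroup G)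
    (hEL : E ≤ L) {n m : ℕ} (hE : Nat.card E = p ^ n) (hnm : n ≤ m) (hL : p ^ m ∣ Nat.card L) :
    ∃ M : Subgroup G, E ≤ M ∧ M ≤ L ∧ Nat.card M = p ^ m := by
  have hE' : Nat.card (E.subgroupOf L) = p ^ n := by
    rw [← hE]
    exact Nat.card_congr (Subgroup.subgroupOfEquivOfLe hEL).toEquiv
  obtain ⟨K, hK, hEK⟩ := Sylow.exists_subgroup_card_pow_prime_le (G := L) p hL (E.subgroupOf L) hE' hnm
  refine ⟨K.map L.subtype, ?_, map_subtype_le K, ?_⟩
  · intro x hx
    exact ⟨⟨x, hEL hx⟩, hEK (mem_subgroupOf.2 hx), rfl⟩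
  · rw [← hK]
    exact (Nat.card_congr (K.equivMapOfInjective L.subtype L.subtype_injective).toEquiv).symm

/-- The order of an element of a finite `p`-group `L` divides `p ^ m` or is a larger power of `p`; if it divides
`p ^ m` and `p ^ m` divides `#L`, the element lies in a subgroup of `L` of order `p ^ m`. -/
theorem exists_subgroup_mem {G : Type*} [Group G] [Finite G] {p : ℕ} [hp : Fact p.Prime] (L : Subgroup G)
    {m : ℕ} (hL : p ^ m ∣ Nat.card L) (u : G) (hu : u ∈ L) (hum : u ^ p ^ m = 1) :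
    ∃ M : Subgroup G, u ∈ M ∧ M ≤ L ∧ Nat.card M = p ^ m := by
  obtain ⟨n, hn, hn'⟩ := (Nat.dvd_prime_pow hp.out).1 (orderOf_dvd_of_pow_eq_one hum)
  obtain ⟨M, h1, h2, h3⟩ := exists_between (p := p) (zpowers u) L (zpowers_le.2 hu) (n := n) (m := m)
    (by rw [Nat.card_zpowers]; exact hn') hn hL
  exact ⟨M, h1 (mem_zpowers u), h2, h3⟩

/-- An automorphism of order prime to `p` of a finite `p`-group which is trivial on all the sections `M / E`,
`M` non-cyclic of order `p ^ (k + 1)` and `E` of order `p ^ k`, and on the cyclic subgroups of order `p ^ k`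
(and 4 if `p ^ k = 2`) is trivial. -/
theorem eq_one_of_fixed_order {Q : Type*} [Group Q] [Finite Q] {p : ℕ} [hp : Fact p.Prime]
    (hQ : IsPGroup p Q) (b : MulAut Q) (hb : (orderOf b).Coprime p) {k : ℕ} (hk : 1 ≤ k)
    (hcard : p ^ (k + 1) ∣ Nat.card Q)
    (h1 : ∀ E M : Subgroup Q, E ≤ M → Nat.card E = p ^ k → Nat.card M = p ^ (k + 1) → ¬ IsCyclic M →
      ∀ m ∈ M, m⁻¹ * b m ∈ E)
    (h2 : ∀ E : Subgroup Q, IsCyclic E → (Nat.card E = p ^ k ∨ (p ^ k = 2 ∧ Nat.card E = 4)) →
      ∀ e ∈ E, b e = e) :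
    b = 1 := by
  have hclaim : ∀ E : Subgroup Q, Nat.card E = p ^ k → ∀ e ∈ E, b e = e := by
    intro E hE
    by_cases hc : IsCyclic E
    · exact h2 E hc (Or.inl hE)
    · obtain ⟨M, hEM, -, hM⟩ := exists_between (p := p) E ⊤ le_top (n := k) (m := k + 1) hE (Nat.le_succ k)
        (by rw [Subgroup.card_top]; exact hcard)
      have hMc : ¬ IsCyclic M := by
        intro hMc
        apply hc
        exact isCyclic_of_injective (Subgroup.inclusion hEM) (Subgroup.inclusion_injective hEM)
      have hinv : ∀ m ∈ M, b m ∈ M := by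
        intro m hm
        have h3 := hEM (h1 E M hEM hE hM hMc m hm)
        have h4 := M.mul_mem hm h3
        rwa [mul_inv_cancel_left] at h4
      obtain ⟨c, hc1, hc2⟩ := H794.exists_restrict b M hinv
      have hMp : IsPGroup p M := hQ.to_subgroup M
      have hc3 : c = 1 := by
        apply Schreier.Tools2.eq_one_of_coprime hMp c (Nat.Coprime.coprime_dvd_left hc2 hb)
        intro t
        have hn : (frattini M).Normal := inferInstance
        have h5 : t⁻¹ * c t ∈ frattini M := by
          rw [frattini, Order.radical, Subgroup.mem_iInf]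
          intro L
          rw [Subgroup.mem_iInf]
          intro hL
          have hL' : IsCoatom L := hL
          have hLi := Lib.FrattiniPGroup.index_of_coatom hMp hL'
          have hLc : Nat.card (L.map M.subtype) = p ^ k := by
            have h6 : Nat.card (L.map M.subtype) = Nat.card L :=
              (Nat.card_congr (L.equivMapOfInjective M.subtype M.subtype_injective).toEquiv).symm
            rw [h6]
            have h7 := L.card_mul_index
            rw [hLi, hM, pow_succ] at h7
            exact Nat.eq_of_mul_eq_mul_right hp.out.pos h7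
          have h8 := h1 (L.map M.subtype) M (map_subtype_le L) hLc hM hMc t t.2
          obtain ⟨y, hy, hy'⟩ := h8
          have h9 : y = t⁻¹ * c t := by
            apply Subtype.ext
            have h10 : ((t⁻¹ * c t : M) : Q) = (t : Q)⁻¹ * ((c t : M) : Q) := rfl
            rw [h10, hc1]
            exact hy'
          rw [← h9]
          exact hy
        have h6 := hn.conj_mem _ h5 t
        have h7 : t * (t⁻¹ * c t) * t⁻¹ = c t * t⁻¹ := by group
        rwa [h7] at h6
      intro e he
      have h4 := hc1 ⟨e, hEM he⟩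
      rw [hc3] at h4
      exact h4.symm
  apply H794.mulAut_eq_one_of_fix_small hQ b hb
  have hcard' : p ^ k ∣ Nat.card (⊤ : Subgroup Q) := by
    rw [Subgroup.card_top]
    exact (pow_dvd_pow p (Nat.le_succ k)).trans hcard
  intro x hx
  rcases hx with hx | ⟨hp2, hx⟩
  · obtain ⟨M, hxM, -, hM⟩ := exists_subgroup_mem (p := p) (⊤ : Subgroup Q) hcard' x (mem_top x)
      (by
        obtain ⟨j, rfl⟩ : ∃ j, k = j + 1 := ⟨k - 1, by omega⟩
        rw [pow_succ', pow_mul, hx, one_pow])
    exact hclaim M hM x hxM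
  · subst hp2
    by_cases hk1 : k = 1
    · subst hk1
      by_cases hx2 : x ^ 2 = 1
      · obtain ⟨M, hxM, -, hM⟩ := exists_subgroup_mem (p := 2) (⊤ : Subgroup Q) hcard' x (mem_top x)
          (by rw [pow_one]; exact hx2)
        exact hclaim M hM x hxM
      · have h4 : orderOf x = 4 := by
          have : orderOf x = 2 ^ (1 + 1) := by
            apply orderOf_eq_prime_pow
            · rw [pow_one]; exact hx2
            · exact hx
          rw [this]; norm_num
        apply h2 (zpowers x) inferInstance (Or.inr ⟨by norm_num, ?_⟩) x (mem_zpowers x)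
        rw [Nat.card_zpowers]
        exact h4
    · obtain ⟨M, hxM, -, hM⟩ := exists_subgroup_mem (p := 2) (⊤ : Subgroup Q) hcard' x (mem_top x)
        (by
          obtain ⟨j, rfl⟩ : ∃ j, k = 2 + j := ⟨k - 2, by omega⟩
          rw [pow_add, pow_mul]
          norm_num
          rw [hx, one_pow])
      exact hclaim M hM x hxM

end Cfsg.Agent.H269
end

-- part: H269/StrongFixed
section
/-!
# `p`-nilpotency from the strong closure of all subgroups of one fixed order

`IsHSub E`: `E ^ g ∩ N_G(E) ≤ E` for all `g`.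
`AllHSub P d`: all subgroups of `P` of order `d` (and those of order 4 if `d = 2`) have this property.
-/

set_option autoImplicit false
set_option linter.unusedSectionVars false

namespace Cfsg.Agent.H269

open Subgroup
open scoped commutatorElement

section Basic

variable {G : Type*} [Group G]

/-- `E` is strongly closed in its normalizer with respect to `G`. -/
def IsHSub (E : Subgroup G) : Prop :=
  ∀ g : G, E.map (MulAut.conj g).toMonoidHom ⊓ Subgroup.normalizer (E : Set G) ≤ E

/-- All subgroups of `P` of order `d`, and of order 4 if `d = 2`, are strongly closed in their normalizers. -/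
def AllHSub (P : Subgroup G) (d : ℕ) : Prop :=
  ∀ E : Subgroup G, E ≤ P → (Nat.card E = d ∨ (d = 2 ∧ Nat.card E = 4)) → IsHSub E

theorem mem_normalizer_of_forall [Finite G] {E : Subgroup G} {y : G} (h : ∀ e ∈ E, y * e * y⁻¹ ∈ E) :
    y ∈ normalizer (E : Set G) := by
  rw [mem_normalizer_iff_map_conj_eq]
  apply SetLike.coe_injective
  refine Set.eq_of_subset_of_ncard_le ?_ ?_ (Set.toFinite _)
  · rintro _ ⟨e, he, rfl⟩
    exact h e he
  · have h1 : ((E.map (MulAut.conj y).toMonoidHom : Subgroup G) : Set G) = (MulAut.conj y) '' (E : Set G) := rfl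
    have h2 : Set.ncard ((MulAut.conj y) '' (E : Set G)) = Set.ncard (E : Set G) :=
      Set.ncard_image_of_injective _ (MulAut.conj y).injective
    exact h2.symm.le

theorem IsHSub.mem {E : Subgroup G} (hE : IsHSub E) {x g : G} (hx : x ∈ E)
    (hg : g * x * g⁻¹ ∈ normalizer (E : Set G)) : g * x * g⁻¹ ∈ E :=
  hE g ⟨⟨x, hx, rfl⟩, hg⟩

/-- A subgroup with the `H`-property inside a finite `p`-subgroup is normalized by it. -/
theorem IsHSub.le_normalizer [Finite G] {p : ℕ} [Fact p.Prime] {E P : Subgroup G} (hE : IsHSub E)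
    (hP : IsPGroup p P) (hEP : E ≤ P) : P ≤ normalizer (E : Set G) := by
  have hnil : Group.IsNilpotent P := hP.isNilpotent
  have hnc := Group.normalizerCondition_of_isNilpotent (G := P)
  set N : Subgroup P := (normalizer (E : Set G)).subgroupOf P with hN
  by_contra hcon
  have hNt : N ≠ ⊤ := by
    intro h
    apply hcon
    intro x hx
    have : (⟨x, hx⟩ : P) ∈ N := by rw [h]; exact mem_top _
    exact mem_subgroupOf.1 this
  have hlt := hnc N (lt_top_iff_ne_top.2 hNt)
  obtain ⟨y, hy, hyN⟩ := SetLike.exists_of_lt hlt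
  apply hyN
  rw [hN, mem_subgroupOf]
  apply mem_normalizer_of_forall
  intro e he
  apply hE.mem he
  have heN : (⟨e, hEP he⟩ : P) ∈ N := by
    rw [hN, mem_subgroupOf]
    exact Subgroup.le_normalizer he
  have h1 := (mem_normalizer_iff.1 hy ⟨e, hEP he⟩).1 heN
  exact mem_subgroupOf.1 h1

theorem IsHSub.mem_of_mem [Finite G] {p : ℕ} [Fact p.Prime] {E P : Subgroup G} (hE : IsHSub E)
    (hP : IsPGroup p P) (hEP : E ≤ P) {x g : G} (hx : x ∈ E) (hg : g * x * g⁻¹ ∈ P) : g * x * g⁻¹ ∈ E :=
  hE.mem hx (hE.le_normalizer hP hEP hg)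

end Basic

section Aut

variable {Q : Type*} [Group Q] [Finite Q] {p : ℕ} [hp : Fact p.Prime]

/-- An automorphism whose order is prime to `p` and to `p - 1` fixes pointwise each invariant cyclic
subgroup of order a power of `p`. -/
theorem fix_cyclic (b : MulAut Q) (hb : (orderOf b).Coprime p) (hb' : (orderOf b).Coprime (p - 1))
    (C : Subgroup Q) (hC : IsCyclic C) {n : ℕ} (hn : Nat.card C = p ^ n) (hinv : ∀ x ∈ C, b x ∈ C) :
    ∀ x ∈ C, b x = x := by
  obtain ⟨c, hc1, hc2⟩ := H794.exists_restrict b C hinv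
  have h1 : orderOf c ∣ Nat.card (MulAut C) := orderOf_dvd_natCard c
  have h2 : Nat.card (MulAut C) = (Nat.card C).totient := hC.card_mulAut
  have h3 : Nat.Coprime (orderOf c) (Nat.card (MulAut C)) := by
    apply Nat.Coprime.coprime_dvd_left hc2
    rw [h2, hn]
    cases n with
    | zero => simp
    | succ n =>
      rw [Nat.totient_prime_pow_succ hp.out]
      exact Nat.Coprime.mul_right (Nat.Coprime.pow_right _ hb) hb'
  have h4 : orderOf c = 1 := Nat.Coprime.eq_one_of_dvd h3 h1
  rw [orderOf_eq_one_iff] at h4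
  intro x hx
  have h5 := hc1 ⟨x, hx⟩
  rw [h4] at h5
  exact h5.symm

/-- An automorphism whose order is prime to `p - 1` acts trivially on each invariant section `M / E` of
order `p`. -/
theorem fix_section (b : MulAut Q) (hb' : (orderOf b).Coprime (p - 1)) (E M : Subgroup Q)
    (hEn : (E.subgroupOf M).Normal) (hidx : E.relIndex M = p)
    (hM : ∀ x ∈ M, b x ∈ M) (hE : ∀ x ∈ E, b x ∈ E) : ∀ m ∈ M, m⁻¹ * b m ∈ E := by
  obtain ⟨c, hc1, hc2⟩ := H794.exists_restrict b M hM
  have hmap : (E.subgroupOf M).map (c : M →* M) = E.subgroupOf M := by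
    apply SetLike.coe_injective
    refine Set.eq_of_subset_of_ncard_le ?_ ?_ (Set.toFinite _)
    · rintro _ ⟨e, he, rfl⟩
      have he' : (e : Q) ∈ E := mem_subgroupOf.1 he
      have h1 := hE _ he'
      rw [← hc1] at h1
      exact mem_subgroupOf.2 h1
    · have h1 : (((E.subgroupOf M).map (c : M →* M) : Subgroup M) : Set M) = c '' (E.subgroupOf M : Set M) := rfl
      rw [h1, Set.ncard_image_of_injective _ c.injective]
  let φ : MulAut (M ⧸ E.subgroupOf M) := QuotientGroup.congr (E.subgroupOf M) (E.subgroupOf M) c hmap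
  have hφ : ∀ (j : ℕ) (m : M), (φ ^ j) (m : M ⧸ E.subgroupOf M) = (((c ^ j) m : M) : M ⧸ E.subgroupOf M) := by
    intro j
    induction j with
    | zero => intro m; rfl
    | succ j ih =>
      intro m
      rw [pow_succ', pow_succ', MulAut.mul_apply, MulAut.mul_apply, ih]
      rfl
  have h0 : orderOf φ ∣ orderOf c := by
    apply orderOf_dvd_of_pow_eq_one
    apply MulEquiv.ext
    intro x
    obtain ⟨m, rfl⟩ := QuotientGroup.mk_surjective x
    rw [hφ, pow_orderOf_eq_one]
    rfl
  have hcardq : Nat.card (M ⧸ E.subgroupOf M) = p := hidx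
  have hcyc : IsCyclic (M ⧸ E.subgroupOf M) := isCyclic_of_prime_card hcardq
  have h1 : orderOf φ ∣ Nat.card (MulAut (M ⧸ E.subgroupOf M)) := orderOf_dvd_natCard φ
  have h2 : Nat.card (MulAut (M ⧸ E.subgroupOf M)) = (Nat.card (M ⧸ E.subgroupOf M)).totient := hcyc.card_mulAut
  have h3 : Nat.Coprime (orderOf φ) (Nat.card (MulAut (M ⧸ E.subgroupOf M))) := by
    apply Nat.Coprime.coprime_dvd_left (h0.trans hc2)
    rw [h2, hcardq, Nat.totient_prime hp.out]
    exact hb'
  have h4 : orderOf φ = 1 := Nat.Coprime.eq_one_of_dvd h3 h1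
  rw [orderOf_eq_one_iff] at h4
  intro m hm
  have h5 : φ ((⟨m, hm⟩ : M) : M ⧸ E.subgroupOf M) = ((⟨m, hm⟩ : M) : M ⧸ E.subgroupOf M) := by
    rw [h4]; rfl
  have h6 : ((c ⟨m, hm⟩ : M) : M ⧸ E.subgroupOf M) = ((⟨m, hm⟩ : M) : M ⧸ E.subgroupOf M) := h5
  have h7 := QuotientGroup.eq.1 h6.symm
  have h8 := mem_subgroupOf.1 h7
  have h9 := hc1 ⟨m, hm⟩
  have h10 : (((⟨m, hm⟩ : M)⁻¹ * c ⟨m, hm⟩ : M) : Q) = m⁻¹ * ((c ⟨m, hm⟩ : M) : Q) := rfl
  rw [h10, h9] at h8
  exact h8

end Aut

section Fusion

variable {G : Type*} [Group G] [Finite G] {p : ℕ} [hp : Fact p.Prime]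

/-- The automorphism induced on a subgroup by an element of its normalizer. -/
theorem exists_conj_aut (Q : Subgroup G) (x : G) (hx : x ∈ normalizer (Q : Set G)) :
    ∃ b : MulAut Q, (∀ y : Q, ((b y : Q) : G) = x * y * x⁻¹) ∧ orderOf b ∣ orderOf x := by
  refine ⟨Q.normalizerMonoidHom ⟨x, hx⟩, fun y => rfl, ?_⟩
  have h := orderOf_map_dvd Q.normalizerMonoidHom (⟨x, hx⟩ : normalizer (Q : Set G))
  rwa [Subgroup.orderOf_mk] at h

theorem coprime_sub_one (hmin : ∀ q : ℕ, q.Prime → q ∣ Nat.card G → p ≤ q) (x : G) :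
    (orderOf x).Coprime (p - 1) := by
  rw [Nat.coprime_iff_gcd_eq_one]
  by_contra hne
  obtain ⟨q, hq, hqd⟩ := Nat.exists_prime_and_dvd hne
  have h1 : q ∣ orderOf x := hqd.trans (Nat.gcd_dvd_left _ _)
  have h2 : q ∣ p - 1 := hqd.trans (Nat.gcd_dvd_right _ _)
  have h3 := hmin q hq (h1.trans (orderOf_dvd_natCard x))
  have hp2 := hp.out.two_le
  have h4 : q ≤ p - 1 := Nat.le_of_dvd (by omega) h2
  omega

/-- The order of a member of a `p`-group of exponent dividing. -/
theorem pow_eq_one_of_card {Q : Subgroup G} {k : ℕ} (h : Nat.card Q ∣ p ^ k) {u : G} (hu : u ∈ Q) :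
    u ^ p ^ k = 1 := by
  obtain ⟨c, hc⟩ := h
  rw [hc, pow_mul]
  have : (⟨u, hu⟩ : Q) ^ Nat.card Q = 1 := pow_card_eq_one'
  have h2 := congrArg (Subtype.val) this
  rw [SubmonoidClass.coe_pow] at h2
  rw [h2]
  simp

/-- If all subgroups of order `p ^ k` of the Sylow `p`-subgroup `P` (`p` the smallest prime divisor of `#G`) are
strongly closed, then a `p'`-element normalizing a subgroup of order larger than `p ^ k` of `P` centralizes it. -/
theorem centralizes_of_large (hmin : ∀ q : ℕ, q.Prime → q ∣ Nat.card G → p ≤ q) (P : Subgroup G)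
    (hP : IsPGroup p P) {k : ℕ} (hk : 1 ≤ k) (hall : AllHSub P (p ^ k)) (Q : Subgroup G) (hQP : Q ≤ P)
    (hQ : p ^ (k + 1) ∣ Nat.card Q) (x : G) (hx : x ∈ normalizer (Q : Set G)) (hxp : (orderOf x).Coprime p) :
    ∀ r ∈ Q, x * r * x⁻¹ = r := by
  obtain ⟨b, hb, hbo⟩ := exists_conj_aut Q x hx
  have hQp : IsPGroup p Q := hP.to_le hQP
  have hb1 : (orderOf b).Coprime p := Nat.Coprime.coprime_dvd_left hbo hxp
  have hb2 : (orderOf b).Coprime (p - 1) := Nat.Coprime.coprime_dvd_left hbo (coprime_sub_one hmin x)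
  -- invariance of the subgroups of order `p ^ k` (or 4)
  have hinv : ∀ E : Subgroup Q, (Nat.card E = p ^ k ∨ (p ^ k = 2 ∧ Nat.card E = 4)) → ∀ e ∈ E, b e ∈ E := by
    intro E hE e he
    have hcard : Nat.card (E.map Q.subtype) = Nat.card E :=
      (Nat.card_congr (E.equivMapOfInjective Q.subtype Q.subtype_injective).toEquiv).symm
    have hEP : E.map Q.subtype ≤ P := (map_subtype_le E).trans hQP
    have h1 : IsHSub (E.map Q.subtype) := hall _ hEP (by rw [hcard]; exact hE)
    have h2 : (e : G) ∈ E.map Q.subtype := ⟨e, he, rfl⟩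
    have h3 : x * (e : G) * x⁻¹ ∈ P := by
      rw [← hb]
      exact hQP (b e).2
    have h4 := h1.mem_of_mem hP hEP h2 h3
    rw [← hb] at h4
    obtain ⟨y, hy, hy'⟩ := h4
    rw [← Subtype.ext hy']
    exact hy
  have hb3 : b = 1 := by
    apply eq_one_of_fixed_order hQp b hb1 hk hQ
    · intro E M hEM hE hM hMc
      have hMp : IsPGroup p M := hQp.to_subgroup M
      have hMinv : ∀ m ∈ M, b m ∈ M := by
        intro m hm
        have hmo : m ^ p ^ k = 1 := by
          obtain ⟨j, hj, hj'⟩ := (Nat.dvd_prime_pow hp.out).1 ((hM ▸ M.orderOf_dvd_natCard hm : orderOf m ∣ p ^ (k + 1)))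
          have hne : j ≠ k + 1 := by
            intro hje
            apply hMc
            have h5 : zpowers m = M := by
              apply Subgroup.eq_of_le_of_card_ge (zpowers_le.2 hm)
              rw [Nat.card_zpowers, hj', hje, hM]
            rw [← h5]
            infer_instance
          apply orderOf_dvd_iff_pow_eq_one.1
          rw [hj']
          exact pow_dvd_pow p (by omega)
        obtain ⟨E', hmE', hE'M, hE'⟩ := exists_subgroup_mem (p := p) M (m := k)
          (by rw [hM]; exact pow_dvd_pow p (Nat.le_succ k)) m hm hmo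
        exact hE'M (hinv E' (Or.inl hE') m hmE')
      have hrel : E.relIndex M = p := by
        have h7 : Nat.card (E.subgroupOf M) = Nat.card E :=
          Nat.card_congr (Subgroup.subgroupOfEquivOfLe hEM).toEquiv
        have h8 := (E.subgroupOf M).card_mul_index
        rw [h7, hE, hM, pow_succ] at h8
        exact Nat.eq_of_mul_eq_mul_left (pow_pos hp.out.pos k) h8
      have hnorm : (E.subgroupOf M).Normal := by
        apply Lib.FrattiniPGroup.normal_of_coatom hMp
        refine ⟨?_, ?_⟩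
        · intro h
          have h9 : (E.subgroupOf M).index = p := hrel
          rw [h, index_top] at h9
          exact hp.out.one_lt.ne h9
        · intro K hK
          have h9 : (E.subgroupOf M).index = p := hrel
          have h10 : K.index ∣ p := by rw [← h9]; exact index_dvd_of_le hK.le
          rcases (Nat.dvd_prime hp.out).1 h10 with h11 | h11
          · exact index_eq_one.1 h11
          · exfalso
            have h12 : (E.subgroupOf M).relIndex K * K.index = (E.subgroupOf M).index :=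
              relIndex_mul_index hK.le
            rw [h11, h9] at h12
            have h13 : (E.subgroupOf M).relIndex K = 1 := by
              have := hp.out.pos
              exact Nat.eq_of_mul_eq_mul_right this (by rw [h12, one_mul])
            exact hK.not_ge (relIndex_eq_one.1 h13)
      exact fix_section b hb2 E M hnorm hrel hMinv (hinv E (Or.inl hE))
    · intro E hEc hE
      have hEp : IsPGroup p E := hQp.to_subgroup E
      obtain ⟨n, hn⟩ := hEp.exists_card_eq
      exact fix_cyclic b hb1 hb2 E hEc hn (hinv E hE)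
  intro r hr
  have h1 := hb ⟨r, hr⟩
  rw [hb3] at h1
  exact h1.symm

/-- A subgroup of prime index in a `p`-subgroup, in terms of orders: it is normal there. -/
theorem normal_subgroupOf_of_relIndex {L M : Subgroup G} (hM : IsPGroup p M) (h : L.relIndex M = p) :
    (L.subgroupOf M).Normal := by
  apply Lib.FrattiniPGroup.normal_of_coatom hM
  refine ⟨?_, ?_⟩
  · intro h1
    have h9 : (L.subgroupOf M).index = p := h
    rw [h1, index_top] at h9
    exact hp.out.one_lt.ne h9
  · intro K hK
    have h9 : (L.subgroupOf M).index = p := h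
    have h10 : K.index ∣ p := by rw [← h9]; exact index_dvd_of_le hK.le
    rcases (Nat.dvd_prime hp.out).1 h10 with h11 | h11
    · exact index_eq_one.1 h11
    · exfalso
      have h12 : (L.subgroupOf M).relIndex K * K.index = (L.subgroupOf M).index :=
        relIndex_mul_index hK.le
      rw [h11, h9] at h12
      have h13 : (L.subgroupOf M).relIndex K = 1 := by
        have := hp.out.pos
        exact Nat.eq_of_mul_eq_mul_right this (by rw [h12, one_mul])
      exact hK.not_ge (relIndex_eq_one.1 h13)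

/-- The relative index of `L ⊓ Q` in `Q ≤ M` when `L` has index `p` in the `p`-group `M`. -/
theorem relIndex_eq_or {L M Q : Subgroup G} (hM : IsPGroup p M) (h : L.relIndex M = p) (hQ : Q ≤ M) :
    Q ≤ L ∨ L.relIndex Q = p := by
  have hn := normal_subgroupOf_of_relIndex hM h
  have h1 : (L.subgroupOf M).relIndex (Q.subgroupOf M) ∣ (L.subgroupOf M).index :=
    relIndex_dvd_index_of_normal _ _
  have h2 : (L.subgroupOf M).relIndex (Q.subgroupOf M) = L.relIndex Q := by
    rw [relIndex_subgroupOf hQ]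
  rw [h2] at h1
  have h3 : (L.subgroupOf M).index = p := h
  rw [h3] at h1
  rcases (Nat.dvd_prime hp.out).1 h1 with h4 | h4
  · left; exact relIndex_eq_one.1 h4
  · right; exact h4

/-- If all subgroups of order `p ^ k` of `P` are strongly closed, a `p'`-element normalizing a subgroup of order
at most `p ^ k` acts trivially on it modulo each subgroup `L` of index `p` of `P`. -/
theorem mem_of_small (hmin : ∀ q : ℕ, q.Prime → q ∣ Nat.card G → p ≤ q) (P : Subgroup G)
    (hP : IsPGroup p P) {k : ℕ} (hall : AllHSub P (p ^ k)) (hPk : p ^ (k + 1) ∣ Nat.card P)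
    (Q : Subgroup G) (hQP : Q ≤ P)
    (hQ : Nat.card Q ∣ p ^ k) (x : G) (hx : x ∈ normalizer (Q : Set G))
    (L : Subgroup G) (hL : L.relIndex P = p) (hLP : L ≤ P) :
    ∀ r ∈ Q, r⁻¹ * (x * r * x⁻¹) ∈ L := by
  have hLcard : p ^ k ∣ Nat.card L := by
    have h7 : Nat.card (L.subgroupOf P) = Nat.card L :=
      Nat.card_congr (Subgroup.subgroupOfEquivOfLe hLP).toEquiv
    have h8 := (L.subgroupOf P).card_mul_index
    have h9 : (L.subgroupOf P).index = p := hL
    rw [h7, h9] at h8
    rw [← h8, pow_succ] at hPk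
    exact Nat.dvd_of_mul_dvd_mul_right hp.out.pos hPk
  rcases relIndex_eq_or hP hL hQP with hQL | hQL
  · intro r hr
    exact L.mul_mem (L.inv_mem (hQL hr)) (hQL ((mem_normalizer_iff.1 hx r).1 hr))
  · obtain ⟨b, hb, hbo⟩ := exists_conj_aut Q x hx
    have hb2 : (orderOf b).Coprime (p - 1) := Nat.Coprime.coprime_dvd_left hbo (coprime_sub_one hmin x)
    have hQp : IsPGroup p Q := hP.to_le hQP
    have hinv : ∀ u ∈ L.subgroupOf Q, b u ∈ L.subgroupOf Q := by
      intro u hu
      have huL : (u : G) ∈ L := mem_subgroupOf.1 hu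
      obtain ⟨E, huE, hEL, hE⟩ := exists_subgroup_mem (p := p) L hLcard (u : G) huL
        (pow_eq_one_of_card hQ u.2)
      have h1 := hall E (hEL.trans hLP) (Or.inl hE)
      have h3 : x * (u : G) * x⁻¹ ∈ P := by
        rw [← hb]
        exact hQP (b u).2
      have h4 := h1.mem_of_mem hP (hEL.trans hLP) huE h3
      rw [← hb] at h4
      exact mem_subgroupOf.2 (hEL h4)
    have hn : ((L.subgroupOf Q).subgroupOf ⊤).Normal := by
      have := normal_subgroupOf_of_relIndex hQp hQL
      exact Normal.subgroupOf this ⊤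
    have hr : (L.subgroupOf Q).relIndex ⊤ = p := by
      rw [relIndex_top_right]
      exact hQL
    intro r hr'
    have h5 := fix_section b hb2 (L.subgroupOf Q) ⊤ hn hr (fun _ _ => mem_top _) hinv ⟨r, hr'⟩ (mem_top _)
    have h6 := mem_subgroupOf.1 h5
    have h7 : (((⟨r, hr'⟩ : Q)⁻¹ * b ⟨r, hr'⟩ : Q) : G) = r⁻¹ * ((b ⟨r, hr'⟩ : Q) : G) := rfl
    rw [h7, hb] at h6
    exact h6

/-- Combination: a `p'`-element normalizing a subgroup `Q` of `P` acts trivially on `Q` modulo each
subgroup of index `p` of `P`. -/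
theorem mem_of_coprime (hmin : ∀ q : ℕ, q.Prime → q ∣ Nat.card G → p ≤ q) (P : Subgroup G)
    (hP : IsPGroup p P) {k : ℕ} (hk : 1 ≤ k) (hall : AllHSub P (p ^ k)) (hPk : p ^ (k + 1) ∣ Nat.card P)
    (Q : Subgroup G) (hQP : Q ≤ P) (x : G) (hx : x ∈ normalizer (Q : Set G)) (hxp : (orderOf x).Coprime p)
    (L : Subgroup G) (hL : L.relIndex P = p) (hLP : L ≤ P) :
    ∀ r ∈ Q, r⁻¹ * (x * r * x⁻¹) ∈ L := by
  obtain ⟨n, hn⟩ := (hP.to_le hQP).exists_card_eq
  rcases Nat.lt_or_ge k n with h | h
  · intro r hr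
    rw [centralizes_of_large hmin P hP hk hall Q hQP (by rw [hn]; exact pow_dvd_pow p h) x hx hxp r hr,
      inv_mul_cancel]
    exact L.one_mem
  · exact mem_of_small hmin P hP hall hPk Q hQP (by rw [hn]; exact pow_dvd_pow p h) x hx L hL hLP

/-- The elements of `N_G(R)` acting trivially on `R` modulo `L` form a subgroup. -/
def trivModSubgroup (R L : Subgroup G) : Subgroup G where
  carrier := {g | g ∈ normalizer (R : Set G) ∧ ∀ r ∈ R, r⁻¹ * (g * r * g⁻¹) ∈ L}
  one_mem' := ⟨one_mem _, fun r _ => by simp⟩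
  mul_mem' := by
    rintro a b ⟨ha, ha'⟩ ⟨hb, hb'⟩
    refine ⟨mul_mem ha hb, fun r hr => ?_⟩
    have h1 : b * r * b⁻¹ ∈ R := (mem_normalizer_iff.1 hb r).1 hr
    have h2 := L.mul_mem (hb' r hr) (ha' _ h1)
    have h3 : r⁻¹ * (b * r * b⁻¹) * ((b * r * b⁻¹)⁻¹ * (a * (b * r * b⁻¹) * a⁻¹)) =
        r⁻¹ * (a * b * r * (a * b)⁻¹) := by group
    rwa [h3] at h2
  inv_mem' := by
    rintro a ⟨ha, ha'⟩
    refine ⟨inv_mem ha, fun r hr => ?_⟩
    have h1 : a⁻¹ * r * a ∈ R := by
      have := (mem_normalizer_iff.1 (inv_mem ha) r).1 hr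
      rwa [inv_inv] at this
    have h2 := L.inv_mem (ha' _ h1)
    have h3 : ((a⁻¹ * r * a)⁻¹ * (a * (a⁻¹ * r * a) * a⁻¹))⁻¹ = r⁻¹ * (a⁻¹ * r * a⁻¹⁻¹) := by group
    rwa [h3] at h2

theorem mem_trivModSubgroup {R L : Subgroup G} {g : G} :
    g ∈ trivModSubgroup R L ↔ g ∈ normalizer (R : Set G) ∧ ∀ r ∈ R, r⁻¹ * (g * r * g⁻¹) ∈ L := Iff.rfl

/-- A subgroup containing all `p'`-elements of `N` and a subgroup of index prime to `p` of `N` contains `N`. -/
theorem le_of_coprime_of_relIndex {T N S : Subgroup G} (hS : S ≤ T) (hi : ¬ p ∣ S.relIndex N)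
    (h : ∀ x ∈ N, (orderOf x).Coprime p → x ∈ T) : N ≤ T := by
  by_contra hcon
  have h1 : T.relIndex N ≠ 1 := fun h1 => hcon (relIndex_eq_one.1 h1)
  obtain ⟨q, hq, hqd⟩ := Nat.exists_prime_and_dvd h1
  by_cases hqp : q = p
  · subst hqp
    exact hi (hqd.trans (relIndex_dvd_of_le_left N hS))
  · have : Fact q.Prime := ⟨hq⟩
    obtain ⟨U⟩ : Nonempty (Sylow q N) := inferInstance
    have h2 : (U : Subgroup N) ≤ T.subgroupOf N := by
      intro u hu
      apply mem_subgroupOf.2
      apply h _ u.2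
      obtain ⟨j, hj⟩ := U.isPGroup' ⟨u, hu⟩
      have h3 : (u : G) ^ q ^ j = 1 := by
        have := congrArg (fun z : U => ((z : N) : G)) hj
        simpa using this
      apply Nat.Coprime.coprime_dvd_left (orderOf_dvd_of_pow_eq_one h3)
      exact Nat.Coprime.pow_left j ((Nat.coprime_primes hq hp.out).2 hqp)
    have h3 : T.relIndex N ∣ (U : Subgroup N).index := index_dvd_of_le h2
    exact U.not_dvd_index (hqd.trans h3)

/-- The focal subgroup of `P` lies in every subgroup of index `p` of `P`. -/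
theorem focal_le (hmin : ∀ q : ℕ, q.Prime → q ∣ Nat.card G → p ≤ q) (P : Sylow p G)
    {k : ℕ} (hk : 1 ≤ k) (hall : AllHSub (P : Subgroup G) (p ^ k)) (hPk : p ^ (k + 1) ∣ Nat.card P)
    (L : Subgroup G) (hL : L.relIndex (P : Subgroup G) = p) (hLP : L ≤ (P : Subgroup G)) :
    Subgroup.focalSubgroup (P : Subgroup G) ≤ L := by
  have hP := P.isPGroup'
  have hLn := normal_subgroupOf_of_relIndex hP hL
  -- commutators of `P` lie in `L`
  have hcomm : ∀ r ∈ (P : Subgroup G), ∀ g ∈ (P : Subgroup G), r⁻¹ * (g * r * g⁻¹) ∈ L := by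
    intro r hr g hg
    have hcardq : Nat.card (P ⧸ L.subgroupOf (P : Subgroup G)) = p := hL
    have hcyc : IsCyclic (P ⧸ L.subgroupOf (P : Subgroup G)) := isCyclic_of_prime_card hcardq
    have h1 : (((⟨r, hr⟩ : P)⁻¹ * (⟨g, hg⟩ * ⟨r, hr⟩ * ⟨g, hg⟩⁻¹) : P) : P ⧸ L.subgroupOf (P : Subgroup G)) = 1 := by
      have h2 := hcyc.isMulCommutative
      have h3 : ∀ a b : P ⧸ L.subgroupOf (P : Subgroup G), a * b = b * a := fun a b => h2.is_comm.comm a b
      rw [QuotientGroup.mk_mul, QuotientGroup.mk_mul, QuotientGroup.mk_mul, QuotientGroup.mk_inv,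
        QuotientGroup.mk_inv, h3 ((⟨g, hg⟩ : P) : P ⧸ L.subgroupOf (P : Subgroup G)) _,
        mul_inv_cancel_right, inv_mul_cancel]
    have h2 := (QuotientGroup.eq_one_iff _).1 h1
    exact mem_subgroupOf.1 h2
  rw [Subgroup.focalSubgroup_def, closure_le]
  rintro _ ⟨hgP, y, hy, u, rfl⟩
  have hyu : u * y⁻¹ * u⁻¹ ∈ (P : Subgroup G) := by
    have h1 : y⁻¹ * ⁅y, u⁆ = u * y⁻¹ * u⁻¹ := by
      rw [commutatorElement_def]; group
    rw [← h1]
    exact mul_mem (inv_mem hy) hgP
  have hchain := Transfer.AlperinFusion.fusionChain_of_conj_subset P {y⁻¹} u⁻¹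
    (by
      intro a ha
      rw [Set.mem_singleton_iff.1 ha]
      exact inv_mem hy)
    (by
      rintro _ ⟨a, ha, rfl⟩
      rw [Set.mem_singleton_iff.1 ha]
      show u⁻¹⁻¹ * y⁻¹ * u⁻¹ ∈ _
      rw [inv_inv]
      exact hyu)
  have hrel := hchain.rel (r := fun a b => a⁻¹ * b ∈ L)
    (fun a _ => by simp)
    (fun a b c h1 h2 => by
      have h3 := L.mul_mem h1 h2
      rwa [mul_assoc, mul_inv_cancel_left] at h3)
    (by
      intro Q hQ x hx _ a ha
      set R : Subgroup G := (P : Subgroup G) ⊓ (Q : Subgroup G) with hR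
      have hRP : R ≤ (P : Subgroup G) := inf_le_left
      have hle : normalizer (R : Set G) ≤ trivModSubgroup R L := by
        apply le_of_coprime_of_relIndex (p := p) (S := (P : Subgroup G) ⊓ normalizer (R : Set G))
        · rintro g ⟨hgP, hgN⟩
          exact ⟨hgN, fun r hr => hcomm r (hRP hr) g hgP⟩
        · exact hQ.1
        · intro z hz hzp
          exact ⟨hz, mem_of_coprime hmin P hP hk hall hPk R hRP z hz hzp L hL hLP⟩
      have h1 := (hle (inv_mem hx)).2 a ha
      rwa [inv_inv] at h1)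
    y⁻¹ (Set.mem_singleton _) (inv_mem hy)
  rw [inv_inv, inv_inv] at hrel
  show ⁅y, u⁆ ∈ L
  rw [commutatorElement_def]
  have h1 : y * u * y⁻¹ * u⁻¹ = y * (u * y⁻¹ * u⁻¹) := by group
  rw [h1]
  exact hrel

/-- **`p`-nilpotency from the strong closure of the subgroups of one fixed order.** -/
theorem hasNormalPComplement_of_allHSub (hmin : ∀ q : ℕ, q.Prime → q ∣ Nat.card G → p ≤ q) (P : Sylow p G)
    {k : ℕ} (hk : 1 ≤ k) (hall : AllHSub (P : Subgroup G) (p ^ k)) (hPk : p ^ (k + 1) ∣ Nat.card P) :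
    Cfsg.HasNormalPComplement p G := by
  have hP := P.isPGroup'
  have hfoc : Subgroup.focalSubgroup (P : Subgroup G) ≤ (frattini P).map (P : Subgroup G).subtype := by
    intro x hx
    have hxP : x ∈ (P : Subgroup G) := Subgroup.focalSubgroup_le _ hx
    refine ⟨⟨x, hxP⟩, ?_, rfl⟩
    show (⟨x, hxP⟩ : P) ∈ frattini P
    rw [frattini, Order.radical, Subgroup.mem_iInf]
    intro L
    rw [Subgroup.mem_iInf]
    intro hL
    have hL' : IsCoatom L := hL
    have hLi := Lib.FrattiniPGroup.index_of_coatom hP hL'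
    have h1 : (L.map (P : Subgroup G).subtype).relIndex (P : Subgroup G) = p := by
      rw [relIndex, subgroupOf, comap_map_eq_self_of_injective (Subgroup.subtype_injective _)]
      exact hLi
    have h2 := focal_le hmin P hk hall hPk (L.map (P : Subgroup G).subtype) h1 (map_subtype_le L) hx
    obtain ⟨y, hy, hy'⟩ := h2
    have h3 : y = ⟨x, hxP⟩ := Subtype.ext hy'
    rw [← h3]
    exact hy
  have hcop : Nat.Coprime (P : Subgroup G).index (⁅(P : Subgroup G), (P : Subgroup G)⁆.relIndex (P : Subgroup G)) := by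
    have h1 : ¬ p ∣ (P : Subgroup G).index := P.not_dvd_index
    obtain ⟨n, hn⟩ := hP.exists_card_eq
    have h2 : ⁅(P : Subgroup G), (P : Subgroup G)⁆.relIndex (P : Subgroup G) ∣ p ^ n := by
      rw [← hn]
      exact relIndex_dvd_card _ _
    apply Nat.Coprime.coprime_dvd_right h2
    exact Nat.Coprime.pow_right n ((Nat.Prime.coprime_iff_not_dvd hp.out).2 h1).symm
  obtain ⟨h1, N, hN, hNP, hNt⟩ := Cfsg.Agent.S0080.result (P : Subgroup G) hcop
  have hNf : N ⊓ (P : Subgroup G) ≤ (frattini P).map (P : Subgroup G).subtype := by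
    rw [hNP, ← h1]
    exact hfoc
  obtain ⟨K, hKn, -, hK⟩ := Transfer.TateComplement.exists_complement_of_inf_le_frattini P N hNf
  have h3 : Cfsg.HasNormalPComplement p (N ⊔ (P : Subgroup G) : Subgroup G) := ⟨_, K, hKn, hK⟩
  rw [hNt] at h3
  exact Transfer.PNilpotentBasic.hnc_top.1 h3

end Fusion

end Cfsg.Agent.H269
end
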